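import Cfsg.Agent.Lib.Id.Lin2
import Cfsg.Agent.Lib.Grp.CT5.Main

/-! Identification of the centraliser of a transvection in `SL(5,2)` with a table permutation group. -/

set_option autoImplicit false
set_option maxRecDepth 100000

namespace Cfsg.Agent.Id.CT5

open Cfsg.Agent.CG Matrix

/-- All sums of members of a list. -/
def sums {V : Type} [AddCommGroup V] : List V → List V
  | [] => [0]
  | u :: L => sums L ++ (sums L).map (u + ·)

theorem smul_sums {X V : Type} [Group X] [AddCommGroup V] [DistribMulAction X V] (g : X) :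
    ∀ {L : List V}, (∀ v ∈ L, g • v = v) → ∀ v ∈ sums L, g • v = v
  | [], _, v, hv => by rw [List.mem_singleton.1 hv, smul_zero]
  | u :: L, h, v, hv => by
    have ih := smul_sums g (List.forall_mem_cons.1 h).2
    rcases List.mem_append.1 hv with hv | hv
    · exact ih v hv
    · obtain ⟨w, hw, rfl⟩ := List.mem_map.1 hv
      rw [smul_add, ih w hw, h u (by simp)]

theorem hs : ∀ v, ∃ k < 32, vec2 (Fin.val : Fin 5 → ℕ) k = v := by decide +kernel

variable {s : SpecialLinearGroup (Fin 5) (ZMod 2)}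
  (hs' : (s : Matrix (Fin 5) (Fin 5) (ZMod 2)) = transvection 0 1 1)
include hs'

theorem fix (g : Subgroup.centralizer ({s} : Set (SpecialLinearGroup (Fin 5) (ZMod 2)))) :
    g • vec2 (Fin.val : Fin 5 → ℕ) 1 = vec2 Fin.val 1 ∧ ∀ v : Fin 5 → ZMod 2, (g • v) 1 = v 1 := by
  have h1 : ∀ v : Fin 5 → ZMod 2, s • v = v + v 1 • vec2 Fin.val 1 := by
    change ∀ v, s.1 *ᵥ v = _
    rw [hs']; decide +kernel
  have h2 : ∀ v : Fin 5 → ZMod 2, (g • v) 1 • vec2 (Fin.val : Fin 5 → ℕ) 1 = v 1 • g • vec2 Fin.val 1 :=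
    fun v => by
      have : g.1 • s • v = s • g.1 • v := by
        rw [← mul_smul, ← mul_smul, Subgroup.mem_centralizer_singleton_iff.1 g.2]
      rw [h1, h1, smul_add, add_right_inj, smul_comm] at this
      exact this.symm
  have h3 : g • vec2 (Fin.val : Fin 5 → ℕ) 1 = vec2 Fin.val 1 := by
    have h4 := h2 (vec2 Fin.val 2)
    have h5 : g • vec2 (Fin.val : Fin 5 → ℕ) 1 ≠ 0 := (smul_ne_zero_iff_ne g).2 (by decide)
    revert h4 h5
    generalize g • vec2 (Fin.val : Fin 5 → ℕ) 1 = w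
    generalize (g • vec2 (Fin.val : Fin 5 → ℕ) 2) 1 = c
    revert w c; decide +kernel
  refine ⟨h3, fun v => ?_⟩
  have h4 := congrFun (h2 v) 0
  rw [h3] at h4
  simpa [vec2] using h4

theorem step {L : List (Fin 5 → ZMod 2)} (b : Fin 5 → ZMod 2) {m N : ℕ}
    (h : b ∉ sums (vec2 Fin.val 1 :: L) ∧ ((Finset.range 32).filter fun k =>
      vec2 (Fin.val : Fin 5 → ℕ) k 1 = b 1 ∧ vec2 Fin.val k ∉ sums (vec2 Fin.val 1 :: L)).card ≤ m)
    (hN : Nat.card (fixL (Subgroup.centralizer ({s} : Set (SpecialLinearGroup (Fin 5) (ZMod 2))))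
      (b :: L)) ≤ N) :
    Nat.card (fixL (Subgroup.centralizer ({s} : Set (SpecialLinearGroup (Fin 5) (ZMod 2)))) L) ≤ m * N :=
  card_fixL_le b (ncard_vec2_le hs (fun v => v 1 = b 1 ∧ v ∉ sums (vec2 Fin.val 1 :: L)) h.2)
    (fun g hg => ⟨(fix hs' g).2 b, fun h1 => h.1 (smul_left_cancel g
      (smul_sums g (List.forall_mem_cons.2 ⟨(fix hs' g).1, hg⟩) _ h1) ▸ h1)⟩) hN

theorem last : Nat.card (fixL (Subgroup.centralizer ({s} : Set (SpecialLinearGroup (Fin 5) (ZMod 2))))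
    [vec2 (Fin.val : Fin 5 → ℕ) 16, vec2 Fin.val 8, vec2 Fin.val 4, vec2 Fin.val 2]) ≤ 1 :=
  card_fixL_le_one fun g hg => Subtype.ext (Subtype.ext (eq_one_of_fix (by decide +kernel)
    (List.forall_mem_cons.2 ⟨(fix hs' g).1, hg⟩)))

theorem card_le :
    Nat.card (Subgroup.centralizer ({s} : Set (SpecialLinearGroup (Fin 5) (ZMod 2)))) ≤ 21504 :=
  card_le_fixL (step hs' (vec2 Fin.val 2) (m := 16) (by decide +kernel) (step hs' (vec2 Fin.val 4)
    (m := 14) (by decide +kernel) (step hs' (vec2 Fin.val 8) (m := 12) (by decide +kernel)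
    (step hs' (vec2 Fin.val 16) (m := 8) (by decide +kernel) (last hs')))))

theorem mem (M : SpecialLinearGroup (Fin 5) (ZMod 2))
    (h' : M.1 * transvection 0 1 1 = transvection 0 1 1 * M.1) : M ∈ Subgroup.centralizer {s} :=
  Subgroup.mem_centralizer_singleton_iff.2 (Subtype.ext (by
    change M.1 * s.1 = s.1 * M.1
    rw [hs']; exact h'))

theorem iso : Nonempty (Subgroup.centralizer ({s} : Set (SpecialLinearGroup (Fin 5) (ZMod 2))) ≃*
    CG.CT5.PG) :=
  (exists_equiv_of_realized (pt := fun j : Fin 16 => vec2 (Fin.val : Fin 5 → ℕ) (nth [2, 3, 6, 7, 10, 11, 14, 15, 18, 19, 22, 23, 26, 27, 30, 31] 0 j))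
    (by decide +kernel)
    (tabGroup_le CG.CT5.tabOK CG.CT5.hinv [0, 2] (List.forall_mem_cons.2
      ⟨⟨⟨_, mem hs' ⟨mat2 Fin.val 5 0x5a34e1, by decide +kernel⟩ (by decide +kernel)⟩, fun j => by
        change mat2 Fin.val 5 _ *ᵥ vec2 _ _ = vec2 _ _
        rw [permOf_val CG.CT5.tabOK]
        revert j; decide +kernel⟩, List.forall_mem_cons.2
      ⟨⟨⟨_, mem hs' ⟨mat2 Fin.val 5 0x1ccd661, by decide +kernel⟩ (by decide +kernel)⟩, fun j => by
        change mat2 Fin.val 5 _ *ᵥ vec2 _ _ = vec2 _ _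
        rw [permOf_val CG.CT5.tabOK]
        revert j; decide +kernel⟩, by simp⟩⟩) (by decide +kernel))
    ((card_le hs').trans CG.CT5.card.ge)).nonempty

end Cfsg.Agent.Id.CT5
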