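import Cfsg.Agent.Lib.Id.Cent2
import Cfsg.Agent.Lib.Grp.CT5.Main
import Cfsg.Agent.Lib.Grp.He.Out

/-! The centraliser of a 2-central involution in the table group `He`. -/

set_option autoImplicit false
set_option maxRecDepth 100000

namespace Cfsg.Agent.Id.CentHe

open Cfsg.Agent.CG

theorem ord_t : orderOf (He.act.gen 12) = 2 :=
  orderOf_gen_two He.base (by decide +kernel) (by decide +kernel)

theorem card_le : Nat.card (Subgroup.centralizer {He.act.gen 12}) ≤ 21504 :=
  card_cent_le (A := He.act) (E := He.en) He.enumOK He.hinv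
    (okc_of_okcb (n := 2058) (w := 16) (by decide +kernel)) (by norm_num) (by rw [He.card])

theorem iso : Nonempty (CT5.PG ≃* Subgroup.centralizer {He.act.gen 12}) :=
  (exists_equiv_of_bounds He.base CT5.bounds CT5.rels CT5.clS CT5.card
    (I := [[], [], [], [], [], [], [], [], [], [], [], [], [], [], [], [], [], [], [], [], [], [59, 56, 58, 55, 55, 62, 65], [58, 60, 57, 55, 59, 61, 61, 64], [57, 61, 57, 61], [56, 58, 55, 55, 64], [56, 56, 58, 61, 61, 64], [57, 57, 59, 61, 61, 65]])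
    (by decide +kernel) (mem_cent_of_all He.base (by decide +kernel)) He.chainC
    (V := [(55, [23, 22, 24, 26, 23, 24, 25, 23, 21, 24, 21]), (56, [26, 23, 21, 24, 25, 22, 21]), (57, [24, 23, 22, 24, 26, 24, 23, 22, 24, 25, 23, 24, 21]), (58, [25, 24, 23, 22, 24, 26, 23, 21, 24, 25, 22, 21, 24, 23, 22]), (59, [23, 24, 26, 24, 25, 22, 24, 25, 22, 24]), (60, [26, 24, 23, 22, 24, 26, 22, 24, 25, 23, 22, 21, 24, 22, 21]), (61, [25, 24, 23, 22, 24, 26, 24, 25, 22, 24, 25, 24, 23, 22, 24, 21]), (62, [26, 24, 23, 22, 24, 26, 25, 24, 21, 24, 25, 23, 22, 24, 23, 22, 21]), (63, [23, 24, 26, 24, 25, 22, 24, 25, 23, 21, 24, 23, 22]), (64, [26, 24, 23, 22, 24, 26, 22, 21, 24, 25, 23, 21, 24, 22, 21]), (65, [25, 24, 26, 23, 24, 25, 24])])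
    (by decide +kernel) (by decide +kernel) (by decide +kernel) card_le (by decide +kernel)).nonempty

end Cfsg.Agent.Id.CentHe
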