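import Cfsg.Agent.Lib.Id.Cent2
import Cfsg.Agent.Lib.Grp.CT5.Main
import Cfsg.Agent.Lib.Grp.M24.Out

/-! The centraliser of a 2-central involution in the table group `M24`. -/

set_option autoImplicit false
set_option maxRecDepth 100000

namespace Cfsg.Agent.Id.CentM24

open Cfsg.Agent.CG

theorem ord_t : orderOf (M24.act.gen 10) = 2 :=
  orderOf_gen_two M24.base (by decide +kernel) (by decide +kernel)

theorem card_le : Nat.card (Subgroup.centralizer {M24.act.gen 10}) ≤ 21504 :=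
  card_cent_le (A := M24.act) (E := M24.en) M24.enumOK M24.hinv
    (okc_of_okcb (n := 24) (w := 8) (by decide +kernel)) (by norm_num) (by rw [M24.card])

theorem iso : Nonempty (CT5.PG ≃* Subgroup.centralizer {M24.act.gen 10}) :=
  (exists_equiv_of_bounds M24.base CT5.bounds CT5.rels CT5.clS CT5.card
    (I := [[], [], [], [], [], [], [], [], [], [], [], [], [], [], [], [], [], [], [], [], [], [61, 64, 67, 65, 70, 69], [63, 55, 60, 60, 69, 61, 65, 69], [57, 55, 60, 60, 62, 68, 69], [63, 55, 60, 64, 66, 70], [56, 60, 70, 64, 68, 70, 69], [63, 55, 60, 60, 69, 62, 66]])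
    (by decide +kernel) (mem_cent_of_all M24.base (by decide +kernel)) M24.chainC
    (V := [(55, [23, 24, 26, 23, 24, 25, 23, 21, 24, 23, 22, 21]), (56, [26, 22, 21, 24, 25, 21]), (57, [24, 22, 25, 24, 26, 24, 25, 22, 24, 25, 24, 23, 22, 21, 24, 23, 22]), (58, [26, 24, 23, 22, 24, 26, 24, 25, 22, 24, 25, 24]), (59, [24, 22, 25, 24, 26, 24, 25, 22, 24, 25, 23, 24, 22, 21]), (60, [26, 24, 23, 22, 24, 26, 23, 21, 24, 25, 23]), (61, [23, 22, 24, 26, 24, 23, 22, 24, 25, 22, 21, 24, 23, 21]), (62, [25, 24, 23, 22, 24, 26, 25, 22, 24, 25, 24, 23, 22, 21, 24, 23]), (63, [24, 22, 25, 24, 26, 25, 22, 24, 25, 24, 21]), (64, [23, 24, 26, 25, 22, 24, 25, 22, 24, 23, 22]), (65, [23, 22, 24, 26, 24, 23, 22, 24, 25, 22, 24, 23, 21]), (66, [25, 24, 23, 22, 24, 26, 25, 22, 24, 25, 24, 23, 22, 24, 23, 21]), (67, [23, 24, 26, 24, 21, 24, 25, 24, 22]), (68, [22, 21, 24, 26, 24, 21, 24, 25, 24, 23, 21]), (69, [24, 21, 24, 26, 24, 21, 24, 22]), (70, [25, 24, 23,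 22, 24, 26, 24, 23, 22, 24, 25, 23, 21])])
    (by decide +kernel) (by decide +kernel) (by decide +kernel) card_le (by decide +kernel)).nonempty

end Cfsg.Agent.Id.CentM24
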