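import Cfsg.Agent.Lib.Id.Cent

/-! Vectors and matrices over the field with two elements, in bit masks. -/

set_option autoImplicit false

namespace Cfsg.Agent.Id

open Cfsg.Agent.CG Matrix

variable {ι : Type} (ix : ι → ℕ)

/-- The vector of a mask. -/
def vec2 (k : ℕ) : ι → ZMod 2 := fun i => if k.testBit (ix i) then 1 else 0

/-- The matrix of a mask (columns of `d` bits). -/
def mat2 (d T : ℕ) : Matrix ι ι (ZMod 2) := fun i j => if T.testBit (d * ix j + ix i) then 1 else 0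

variable {ix}

theorem ncard_vec2_le {N m : ℕ} (hs : ∀ v, ∃ k < N, vec2 ix k = v) (p : (ι → ZMod 2) → Prop)
    [DecidablePred p] (h : ((Finset.range N).filter fun k => p (vec2 ix k)).card ≤ m) :
    {v | p v}.Finite ∧ {v | p v}.ncard ≤ m := by
  have : {v | p v} ⊆ vec2 ix '' ((Finset.range N).filter fun k => p (vec2 ix k)) := fun v hv => by
    obtain ⟨k, hk, rfl⟩ := hs v
    exact ⟨k, by simpa [hk] using hv, rfl⟩
  have hf := ((Finset.range N).filter fun k => p (vec2 ix k)).finite_toSet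
  refine ⟨(hf.image _).subset this, (Set.ncard_le_ncard this (hf.image _)).trans
    ((Set.ncard_image_le hf).trans ?_)⟩
  rwa [Set.ncard_coe_finset]

theorem eq_one_of_fix [Fintype ι] [DecidableEq ι] {R : Type*} [CommRing R] {g : Matrix ι ι R}
    {L : List (ι → R)} (hL : ∀ i, Pi.single i 1 ∈ L) (h : ∀ v ∈ L, g *ᵥ v = v) : g = 1 := by
  ext i j
  have := congrFun (h _ (hL j)) i
  rw [mulVec_single_one] at this
  rw [one_apply, ← Pi.single_apply, ← this]; rfl

/-- The symplectic form. -/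
def spB {l R : Type*} [Fintype l] [DecidableEq l] [CommRing R] (u v : l ⊕ l → R) : R := u ⬝ᵥ J l R *ᵥ v

theorem spB_smul {l R : Type*} [Fintype l] [DecidableEq l] [CommRing R] (g : symplecticGroup l R)
    (u v : l ⊕ l → R) : spB (g • u) (g • v) = spB u v := by
  change (g.1 *ᵥ u) ⬝ᵥ J l R *ᵥ (g.1 *ᵥ v) = u ⬝ᵥ J l R *ᵥ v
  rw [mulVec_mulVec, ← vecMul_transpose, ← dotProduct_mulVec, mulVec_mulVec, ← Matrix.mul_assoc,
    SymplecticGroup.mem_iff'.1 g.2]

theorem sp_smul_mem {l R : Type*} [Fintype l] [DecidableEq l] [CommRing R] {L : List (l ⊕ l → R)}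
    {b : l ⊕ l → R} (hb : b ≠ 0) (g : symplecticGroup l R) (h : ∀ v ∈ L, g • v = v) :
    g • b ∈ {v | v ≠ 0 ∧ ∀ u ∈ L, spB u v = spB u b} :=
  ⟨fun h1 => hb (by rw [← inv_smul_smul g b, h1]; exact mulVec_zero _),
    fun u hu => by rw [← spB_smul g u b, h u hu]⟩

end Cfsg.Agent.Id
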