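import Cfsg.Agent.Lib.Id.Cent4

/-! Re-lettered table groups; self-centralising elements of prime order. -/

set_option autoImplicit false

namespace Cfsg.Agent.Id

open Cfsg.Agent.CG

theorem tabGroup_congr {n w r : ℕ} [NeZero n] {tabs tabs' : List ℕ} {d d' M : ℕ}
    (h : allLt (fun a => Nat.beq (nth tabs d a) (nth tabs' d' a)) r = true) :
    tabGroup n w (appT tabs d M) r = tabGroup n w (appT tabs' d' M) r := by
  unfold tabGroup cl
  congr 1
  refine Set.image_congr fun a ha => ?_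
  have : appT tabs d M a = appT tabs' d' M a := funext fun x => by
    unfold appT
    rw [(beq_iff _ _).1 ((allLt_iff _ _).1 h a (List.mem_range.1 ha))]
  unfold permOf
  rw [this]

theorem not_orderOf_mul {G : Type*} [Group G] [Finite G] {x : G} {p s : ℕ} (hp : p.Prime)
    (hx : orderOf x = p) (hn : ¬ p ^ 2 ∣ Nat.card G) (hc : ∀ g, g * x = x * g → g ^ p = 1) (hs : 1 < s)
    (y : G) : orderOf y ≠ p * s := fun hy => by
  have h1 : orderOf (y ^ s) = p := by
    rw [orderOf_pow_of_dvd (by omega) (hy ▸ Dvd.intro_left _ rfl), hy, Nat.mul_div_cancel _ (by omega)]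
  obtain ⟨g, hg⟩ := exists_conj_of_card hp (n := 1) (H := Subgroup.zpowers (y ^ s))
    (K := Subgroup.zpowers x) (by rw [Nat.card_zpowers, h1, pow_one]) (by rw [Nat.card_zpowers, hx, pow_one]) hn
  obtain ⟨k, hk⟩ := hg x (Subgroup.mem_zpowers x)
  have h2 : Commute y (g * x * g⁻¹) := hk ▸ ((Commute.refl y).pow_right s).zpow_right k
  have h3 := hc (g⁻¹ * y * g) (by
    calc g⁻¹ * y * g * x = g⁻¹ * (y * (g * x * g⁻¹)) * g := by group
      _ = x * (g⁻¹ * y * g) := by rw [h2.eq]; group)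
  have h4 : y ^ p = 1 := by
    have := conj_pow (a := g⁻¹) (b := y) (i := p)
    rw [inv_inv, h3] at this
    simpa [mul_eq_one_iff_eq_inv] using this.symm
  have := Nat.le_of_dvd hp.pos (hy ▸ orderOf_dvd_of_pow_eq_one h4)
  nlinarith [hp.pos]

section
variable {G X : Type*} [Group G] [MulAction G X] {A : Act G X} {B : List ℕ}

theorem orderOf_ev_prime (hB : A.IsBase B) {v : List ℕ} {p : ℕ} (hp : p.Prime)
    (h1 : eqW A.app B (powL p v) [] = true) (h2 : eqW A.app B v [] = false) : orderOf (ev A.gen v) = p :=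
  have := Fact.mk hp
  orderOf_eq_prime (by rw [← ev_powL]; exact hB.ev_eq h1) (A.ev_ne_of_eqW hB.1 h2)

theorem pow_of_comm [Finite G] {l : Lvl} {L : List Lvl} (hC : ChainOK A (l :: L) [])
    (hN : Nat.card G ≤ prodN (l :: L)) (hB : A.IsBase B) {a p : ℕ} {Q F : List (List ℕ)}
    (h1 : lettersIn [a] Q = true) (hQ : eqL (trSources A.app (diagQ Q) l.b) (bases (l :: L)) = true)
    (h : trChk A.app l L B (diagQ Q) (diagQ [[a]]) F 0 l.N = true)
    (h2 : allL (fun φ => eqW A.app B (powL p φ) []) F = true) (g : G)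
    (hg : g * ev A.gen [a] = ev A.gen [a] * g) : g ^ p = 1 := by
  have h3 : cl A.gen [a] ≤ Subgroup.centralizer {g} :=
    cl_le _ (by simpa [Subgroup.mem_centralizer_singleton_iff] using hg.symm)
  obtain ⟨φ, hφ, rfl⟩ := centralizer_subset hC hN hB h1 (lettersIn_iff.2 (by simp)) hQ h g
    fun y hy => Subgroup.mem_centralizer_singleton_iff.1 (h3 hy)
  rw [← ev_powL]
  exact hB.ev_eq ((allL_iff _ _).1 h2 φ hφ)

end

end Cfsg.Agent.Id
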