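import Cfsg.Agent.Lib.Id.ConwayBig
import Cfsg.Agent.Lib.Id.Pres
import Cfsg.Agent.Lib.Forms.SU3

/-! Actions of matrix groups on projective points, computed in a model ring. -/

set_option autoImplicit false

namespace Cfsg.Agent.Id

open Cfsg.Agent.CG Matrix
open scoped Pointwise

section
variable {ι K F : Type*} [Fintype ι] [DecidableEq ι] [CommRing K] [Field F]

/-- The multiples of a vector. -/
def pline (v : ι → F) : Set (ι → F) := Set.range fun c : F => c • v

theorem smul_pline (g : SpecialLinearGroup ι F) {v w : ι → F} {c : F} (hc : c ≠ 0) (h : g.1 *ᵥ v = c • w) :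
    g • pline v = pline w := by
  have h' : g • v = c • w := h
  ext x
  constructor
  · rintro ⟨_, ⟨d, rfl⟩, rfl⟩
    exact ⟨d * c, by simp only [mul_smul, ← h', smul_comm g d]⟩
  · rintro ⟨d, rfl⟩
    exact ⟨_, ⟨d / c, rfl⟩, by simp only [smul_comm g, h', smul_smul, div_mul_cancel₀ d hc]⟩

theorem smul_pline_map (φ : K →+* F) (hφ : Function.Injective φ) (g : SpecialLinearGroup ι F)
    {M : Matrix ι ι K} (hg : g.1 = M.map φ) {v w : ι → K} {c : K} (h : c ≠ 0 ∧ M *ᵥ v = c • w) :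
    g • pline (φ ∘ v) = pline (φ ∘ w) :=
  smul_pline g ((map_ne_zero_iff φ hφ).2 h.1) (funext fun i => by
    rw [hg, ← RingHom.map_mulVec, h.2]; simp)

omit [Fintype ι] [DecidableEq ι] in
theorem pline_inj [LinearOrder ι] (φ : K →+* F) (hφ : Function.Injective φ) {v w : ι → K}
    (hv : ∃ i, v i = 1 ∧ ∀ j < i, v j = 0) (hw : ∃ i, w i = 1 ∧ ∀ j < i, w j = 0)
    (h : pline (φ ∘ v) = pline (φ ∘ w)) : v = w := by
  obtain ⟨c, hc⟩ : φ ∘ v ∈ pline (φ ∘ w) := h ▸ ⟨1, one_smul _ _⟩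
  have hc : ∀ i, c * φ (w i) = φ (v i) := fun i => congrFun hc i
  obtain ⟨i, h1, h2⟩ := hv
  obtain ⟨j, h3, h4⟩ := hw
  have h5 : c = 1 := by
    rcases lt_trichotomy i j with h | rfl | h
    · simpa [h1, h4 i h] using hc i
    · simpa [h1, h3] using hc i
    · have h6 : c = 0 := by simpa [h3, h2 j h] using hc j
      simpa [h1, h6] using hc i
  exact funext fun i => hφ (by rw [← hc, h5, one_mul])

end

/-- Unitary matrices from a model ring. -/
theorem exists_SU {n q : ℕ} {K F : Type*} [CommRing K] [Field F] [Fintype F] (hF : Fintype.card F = q ^ 2)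
    (φ : K →+* F) {M : Matrix (Fin n) (Fin n) K} (h : M.det = 1 ∧ Mᵀ * M.map (· ^ q) = 1) :
    ∃ g : SU n F q, g.1.1 = M.map φ := by
  refine ⟨⟨⟨M.map φ, by rw [← RingHom.mapMatrix_apply, ← RingHom.map_det, h.1, map_one]⟩,
    fun u v => ?_⟩, rfl⟩
  have h1 : (M.map φ)ᵀ * (M.map φ).map (Forms.frobq hF) = 1 := by
    have := congrArg φ.mapMatrix h.2
    rw [map_mul, map_one] at this
    rw [← this]
    congr 1
    ext i j
    simp [Forms.frobq_apply]
  change (M.map φ *ᵥ u) ⬝ᵥ (Forms.frobq hF ∘ (M.map φ *ᵥ v)) = u ⬝ᵥ (Forms.frobq hF ∘ v)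
  rw [show Forms.frobq hF ∘ (M.map φ *ᵥ v) = (M.map φ).map (Forms.frobq hF) *ᵥ (Forms.frobq hF ∘ v) from
    funext fun i => RingHom.map_mulVec _ _ _ i, ← vecMul_transpose, ← dotProduct_mulVec, mulVec_mulVec,
    h1, one_mulVec]

theorem card_SU {n q : ℕ} {F : Type*} [Field F] [Fintype F] (hF : Fintype.card F = q ^ 2) [NeZero n] :
    (Nat.card (SU n F q) * (q + 1) : ℤ) =
      ∏ i ∈ Finset.range n, (q : ℤ) ^ i * (q ^ (i + 1) - (-1) ^ (i + 1)) := by
  rw [← (Forms.uForm_nondeg n hF).card_gu (by simp), ← (Forms.uForm_nondeg n hF).card_SIsom,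
    Nat.card_congr (Forms.suEquiv n hF).toEquiv]
  simp

/-- The model of the field with `p²` elements. -/
theorem exists_quad_hom {F : Type*} [Field F] [Fintype F] {p : ℕ} [Fact p.Prime] (hF : Fintype.card F = p ^ 2)
    (a : ZMod p) (ha : ∀ x : QuadraticAlgebra (ZMod p) a 0, x ≠ 0 → x ^ (p ^ 2 - 1) = 1) (hp : p ≠ 2) :
    ∃ φ : QuadraticAlgebra (ZMod p) a 0 →+* F, Function.Injective φ := by
  have : CharP F p := charP_of_card_eq_prime_pow hF
  let _ := ZMod.algebra F p
  obtain ⟨θ, hθ⟩ : IsSquare (algebraMap (ZMod p) F a) := by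
    by_cases h0 : a = 0
    · simp [h0]
    have h2 : p % 2 = 1 := (Fact.out : p.Prime).eq_two_or_odd.resolve_left hp
    rw [FiniteField.isSquare_iff (by rw [ringChar.eq F p]; exact hp) ((map_ne_zero _).2 h0), hF, ← map_pow,
      show p ^ 2 / 2 = (p - 1) * (p / 2 + 1) by
        obtain ⟨k, hk⟩ : ∃ k, p = 2 * k + 1 := ⟨p / 2, by omega⟩
        rw [hk, show (2 * k + 1) ^ 2 = 2 * (2 * k * (k + 1)) + 1 by ring]
        simp only [Nat.add_sub_cancel]
        rw [show (2 * k + 1) / 2 = k by omega]; omega,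
      pow_mul, ZMod.pow_card_sub_one_eq_one h0, one_pow, map_one]
  let φ := QuadraticAlgebra.lift (a := a) (b := 0) ⟨θ, by rw [← hθ]; simp [Algebra.algebraMap_eq_smul_one]⟩
  refine ⟨φ.toRingHom, (injective_iff_map_eq_zero _).2 fun x hx => by_contra fun h => ?_⟩
  have := congrArg φ.toRingHom (ha x h)
  rw [map_pow, hx, map_one, zero_pow] at this
  · exact zero_ne_one this
  · have := (Fact.out : p.Prime).two_le
    have : 4 ≤ p ^ 2 := by nlinarith
    omega

end Cfsg.Agent.Id
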